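import Cfsg.Agent.H285.DG.Gasch
import Cfsg.Agent.H487.Gen.Alt

/-!
# S4180, C1: `Cos2` for the alternating groups (helper285)
-/

set_option autoImplicit false

namespace Cfsg.Agent.H285.DG

open Cfsg.Agent.H440.TwoGen Cfsg.Agent.H891.Gen Cfsg.Agent.H891.DG Subgroup

universe u

/-- `Cos2` from the groups with a normal subgroup isomorphic to `T` without centraliser. -/
theorem cos2_of_ext {T : Type u} [Group T] [Finite T] (hz : center T = ⊥)
    (h : ∀ (G : Type u) [Group G] (M : Subgroup G), M.Normal → centralizer (M : Set G) = ⊥ → (M ≃* T) → TwoGen G) :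
    Cos2 T := by
  refine cos2_of fun S hS => ?_
  have hinj : Function.Injective (MulAut.conj : T →* MulAut T) := by
    rw [← MonoidHom.ker_eq_bot_iff, eq_bot_iff, ← hz]
    intro x hx
    rw [mem_center_iff]
    intro y
    have h1 : MulAut.conj x y = y := by rw [(MonoidHom.mem_ker).1 hx]; rfl
    rw [MulAut.conj_apply, mul_inv_eq_iff_eq_mul] at h1
    exact h1.symm
  set N : Subgroup ↥S := ((MulAut.conj : T →* MulAut T).range).subgroupOf S with hN
  have hn : N.Normal := inferInstance
  have e : ↥N ≃* T := (Subgroup.subgroupOfEquivOfLe hS).trans (MonoidHom.ofInjective hinj).symm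
  refine h ↥S N hn ?_ e
  rw [eq_bot_iff]
  intro a ha
  rw [mem_bot]
  apply Subtype.ext
  show (a : MulAut T) = 1
  ext t
  have h1 : MulAut.conj t ∈ S := hS ⟨t, rfl⟩
  have h2 : (⟨MulAut.conj t, h1⟩ : ↥S) ∈ (N : Set ↥S) := mem_subgroupOf.2 ⟨t, rfl⟩
  have h3 := congrArg (fun z : ↥S => (z : MulAut T)) (mem_centralizer_iff.1 ha _ h2)
  have h4 : (MulAut.conj t : MulAut T) * a = a * MulAut.conj t := h3
  have h5 : MulAut.conj ((a : MulAut T) t) = MulAut.conj t := by
    have h6 : (a : MulAut T) * MulAut.conj t * (a : MulAut T)⁻¹ = MulAut.conj ((a : MulAut T) t) := by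
      ext x
      rw [MulAut.mul_apply, MulAut.mul_apply, MulAut.conj_apply, MulAut.conj_apply, map_mul, map_mul, map_inv,
        MulAut.apply_inv_self]
    rw [← h6, ← h4, mul_inv_cancel_right]
  exact hinj h5

/-- **C1** -/
theorem cos2_alt (T : Type u) [Group T] [Finite T] [IsSimpleGroup T] (h : Cfsg.IsAlternating T) : Cos2 T := by
  obtain ⟨n, hn, ⟨e⟩⟩ := h
  refine cos2_of_ext ?_ fun G _ M hM hC f =>
    Cfsg.Agent.H487.Gen.AltRow.twoGen_alt hM hC n hn (f.trans e)
  have h4 : 4 ≤ Nat.card (Fin n) := by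
    rw [Nat.card_eq_fintype_card, Fintype.card_fin]
    omega
  rw [eq_bot_iff]
  intro x hx
  rw [mem_bot]
  have h1 : e x ∈ center ↥(alternatingGroup (Fin n)) := by
    rw [mem_center_iff]
    intro y
    have h2 := mem_center_iff.1 hx (e.symm y)
    have h3 := congrArg e h2
    rwa [map_mul, map_mul, e.apply_symm_apply] at h3
  rw [alternatingGroup.center_eq_bot h4, mem_bot] at h1
  rw [← e.symm_apply_apply x, h1, map_one]

end Cfsg.Agent.H285.DG
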